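import Cfsg.Agent.H190.Exc.Sec
import Cfsg.Agent.H72.AdjCoc
import Cfsg.Agent.ClassicalGeometry.SympAutCentral
import Cfsg.Agent.S0776

/-!
# Families of primes with cyclic centralisers in `PSp_2m(q)` (helper76, task EXC-PSP for helper190)

* `psp_card` : `Ind (PSp m F) ρ` implies `ρ.card ≤ 2`.
-/

set_option autoImplicit false
set_option linter.unusedSectionVars false
open Cfsg
open scoped Matrix

namespace Cfsg.Agent.H76.Exc.PSp

open Cfsg.Agent.ClassicalGeometry.SympBasic
open Cfsg.Agent.ClassicalGeometry.SympSiegel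
open Cfsg.Agent.ClassicalGeometry.SympAutCentral
open Cfsg.Agent.H190.Exc Cfsg.Agent.H72.AdjOrth

universe u

variable {F : Type u} [Field F] {m : ℕ}

local notation "V" => (Fin m ⊕ Fin m → F)
local notation "G" => Matrix.symplecticGroup (Fin m) F
local notation "f" => sympForm m F

/-- the image in `PSp` -/
def pr (A : G) : PSp m F := QuotientGroup.mk A

theorem pr_mul (A B : G) : pr (A * B) = pr A * pr B := rfl

theorem pr_pow (A : G) (k : ℕ) : pr (A ^ k) = pr A ^ k := rfl

theorem pr_zpow (A : G) (k : ℤ) : pr (A ^ k) = pr A ^ k := rfl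

theorem pr_one : pr (1 : G) = 1 := rfl

/-- an element fixing a nonzero vector has the same order modulo the centre -/
theorem orderOf_pr {A : G} {e : V} (he : e ≠ 0) (hA : A • e = e) : orderOf (pr A) = orderOf A := by
  rw [orderOf_eq_orderOf_iff]
  intro k
  constructor
  · intro h
    have h1 : (QuotientGroup.mk (1 : G) : PSp m F) = QuotientGroup.mk (A ^ k) := h.symm
    obtain ⟨b, -, hb⟩ := mk_eq_mk_iff.1 h1
    have h2 : ∀ k : ℕ, A ^ k • e = e := by
      intro k
      induction k with
      | zero => rw [pow_zero, one_smul]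
      | succ k ih => rw [pow_succ, mul_smul, hA, ih]
    have h3 := hb e
    rw [h2, one_smul] at h3
    have h4 : b = 1 := by
      have h5 : (1 - b) • e = 0 := by rw [sub_smul, one_smul, ← h3, sub_self]
      have h6 := (smul_eq_zero.1 h5).resolve_right he
      exact (sub_eq_zero.1 h6).symm
    apply ext_smul
    intro v
    have h7 := hb v
    rw [h4, one_smul, one_smul] at h7
    rw [h7, one_smul]
  · intro h
    rw [← pr_pow, h, pr_one]

/-- **An element fixing a hyperbolic pair has a non-cyclic centraliser.** -/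
theorem false_of_pair [Fintype F] {r : ℕ} (hc : CC (PSp m F) r) {A : G} (ho : orderOf (pr A) = r) {e e' : V}
    (hee : f e e' = 1) (h1 : A • e = e) (h2 : A • e' = e') : False := by
  have he : e ≠ 0 := by
    rintro rfl
    rw [sympForm_zero_left] at hee
    exact zero_ne_one hee
  have he' : e' ≠ 0 := by
    rintro rfl
    rw [sympForm_zero_right] at hee
    exact zero_ne_one hee
  have hcomm : ∀ v : V, A • v = v → Commute (pr (transv v 1)) (pr A) := by
    intro v hv
    have h3 := conj_transv A v (1 : F)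
    rw [hv, mul_inv_eq_iff_eq_mul] at h3
    show pr (transv v 1) * pr A = pr A * pr (transv v 1)
    rw [← pr_mul, ← pr_mul, h3]
  have hord : orderOf (pr (transv e (1 : F))) ∣ orderOf (pr (transv e' (1 : F))) := by
    obtain ⟨g, -, hg⟩ := exists_transvGroup_mulVec_eq he he'
    have h3 := conj_transv g e (1 : F)
    rw [smul_def, hg] at h3
    rw [← h3]
    have h4 : pr (g * transv e (1 : F) * g⁻¹) = pr g * pr (transv e 1) * (pr g)⁻¹ := rfl
    rw [h4]
    have h5 : orderOf (MulAut.conj (pr g) (pr (transv e 1))) = orderOf (pr (transv e 1)) :=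
      orderOf_injective (MulAut.conj (pr g)).toMonoidHom (MulAut.conj (pr g)).injective _
    rw [MulAut.conj_apply] at h5
    rw [h5]
  have h3 := hc.mem_zpowers ho (hcomm e h1) (hcomm e' h2) hord
  obtain ⟨k, hk⟩ := Subgroup.mem_zpowers_iff.1 h3
  have h4 : (QuotientGroup.mk (transv e' 1 ^ k) : PSp m F) = QuotientGroup.mk (transv e 1) := hk
  obtain ⟨b, -, hb⟩ := mk_eq_mk_iff.1 h4
  have h5 : ∀ k : ℤ, (transv e' (1 : F)) ^ k • e' = e' := by
    intro k
    have h6 : transv e' (1 : F) ∈ MulAction.stabilizer G e' := by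
      rw [MulAction.mem_stabilizer_iff, transv_smul, sympForm_self, mul_zero, zero_smul, add_zero]
    exact MulAction.mem_stabilizer_iff.1 (Subgroup.zpow_mem _ h6 k)
  have h6 := hb e'
  rw [h5, transv_smul, sympForm_swap, hee, one_mul, neg_smul, one_smul] at h6
  -- `e' - e = b • e'`
  have h7 := congrArg (fun v => f v e') h6
  simp only [sympForm_add_left, sympForm_neg_left, sympForm_smul_left, sympForm_self, hee, mul_zero, zero_add] at h7
  exact one_ne_zero (neg_eq_zero.1 h7)

/-- elements of prime order fixing a hyperbolic pair -/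
theorem exists_pair [Fintype F] {n r : ℕ} (hm : m = n + 1) (hr : r.Prime)
    (hd : r ∣ Nat.card (Matrix.symplecticGroup (Fin n) F)) :
    ∃ (A : G) (e e' : V), orderOf A = r ∧ f e e' = 1 ∧ A • e = e ∧ A • e' = e' := by
  have : Fact r.Prime := ⟨hr⟩
  obtain ⟨A₀, hA₀⟩ := exists_prime_orderOf_dvd_card' r hd
  let W := (Fin n ⊕ Fin n → F) × (Fin 1 ⊕ Fin 1 → F)
  let B : LinearMap.BilinForm F W :=
    (sympBilin n F).compl₁₂ (LinearMap.fst F _ _) (LinearMap.fst F _ _) +
      (sympBilin 1 F).compl₁₂ (LinearMap.snd F _ _) (LinearMap.snd F _ _)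
  have hB : ∀ x y : W, B x y = sympForm n F x.1 y.1 + sympForm 1 F x.2 y.2 := fun x y => rfl
  have hfin : Module.finrank F W = 2 * m := by
    rw [Module.finrank_prod, Module.finrank_fintype_fun_eq_card, Module.finrank_fintype_fun_eq_card,
      Fintype.card_sum, Fintype.card_sum, Fintype.card_fin, Fintype.card_fin]
    omega
  obtain ⟨e, he⟩ := Cfsg.Agent.ClassicalGeometry.SympIso.exists_linearEquiv_sympForm B
    (fun x => by rw [hB, sympForm_self, sympForm_self, add_zero]) (fun u hu => by
      refine Prod.ext (eq_zero_of_forall_sympForm_right fun v => ?_) (eq_zero_of_forall_sympForm_right fun v => ?_)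
      · have h1 := hu (v, 0)
        rw [hB, sympForm_zero_right, add_zero] at h1
        exact h1
      · have h1 := hu (0, v)
        rw [hB, sympForm_zero_right, zero_add] at h1
        exact h1) hfin
  have he2 : ∀ x y : W, sympForm m F (e.symm x) (e.symm y) = sympForm n F x.1 y.1 + sympForm 1 F x.2 y.2 := by
    intro x y
    rw [← he, e.apply_symm_apply, e.apply_symm_apply, hB]
  let φ := Cfsg.Agent.S0776.blockHom e.symm he2
  have hφ : Function.Injective φ := Cfsg.Agent.S0776.blockHom_injective e.symm he2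
  refine ⟨φ (A₀, 1), e.symm (0, Pi.single (Sum.inr 0) 1), e.symm (0, Pi.single (Sum.inl 0) 1), ?_, ?_, ?_, ?_⟩
  · rw [orderOf_injective φ hφ, Prod.orderOf_mk, orderOf_one, Nat.lcm_one_right, hA₀]
  · rw [he2, sympForm_zero_left, zero_add, sympForm_single_inr_left]
    exact Pi.single_eq_same (M := fun _ : Fin 1 ⊕ Fin 1 => F) (Sum.inl 0) 1
  · rw [smul_def, Cfsg.Agent.S0776.blockHom_mulVec e.symm he2, Matrix.mulVec_zero, Submonoid.coe_one, Matrix.one_mulVec]
  · rw [smul_def, Cfsg.Agent.S0776.blockHom_mulVec e.symm he2, Matrix.mulVec_zero, Submonoid.coe_one, Matrix.one_mulVec]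

theorem dvd_two_eta {k : ℕ} : k ∣ 2 * eta k := by
  rw [eta]
  split_ifs with h
  · rw [Nat.mul_div_cancel' h.two_dvd]
  · exact dvd_mul_left _ _

/-- the order of `Sp_2n` -/
theorem dvd_card_sp [Fintype F] {n r : ℕ} (hr : r.Prime) (hrq : ¬ r ∣ Nat.card F)
    (h : eta (ee (Nat.card F) r) ≤ n) : r ∣ Nat.card (Matrix.symplecticGroup (Fin n) F) := by
  rw [Cfsg.Agent.S0245.result (F := F) rfl n]
  have h1 : 1 ≤ eta (ee (Nat.card F) r) := eta_pos (ee_pos hr hrq)
  refine Dvd.dvd.mul_left ?_ _
  refine Dvd.dvd.trans ?_ (Finset.dvd_prod_of_mem _ (Finset.mem_range.2 (show eta (ee (Nat.card F) r) - 1 < n by omega)))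
  rw [Nat.sub_add_cancel h1, ← Nat.card_eq_fintype_card]
  exact (dvd_pow_ee Nat.card_pos).trans (Nat.pow_sub_one_dvd_pow_sub_one _ dvd_two_eta)

theorem class_eq [Fintype F] (hm : 2 ≤ m) {r : ℕ} (hr : r.Prime) (hd : r ∣ Nat.card (PSp m F)) (hc : CC (PSp m F) r) :
    ¬ r ∣ Nat.card F ∧ eta (ee (Nat.card F) r) = m := by
  have h0 : ¬ r ∣ Nat.card F := by
    intro h
    obtain ⟨p, hp⟩ := CharP.exists F
    have hpp : p.Prime := CharP.char_is_prime F p
    have : Fact p.Prime := ⟨hpp⟩
    obtain ⟨n, -, hn⟩ := FiniteField.card F p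
    rw [Nat.card_eq_fintype_card, hn] at h
    have hrp : r = p := (Nat.prime_dvd_prime_iff_eq hr hpp).1 (hr.dvd_of_dvd_pow h)
    subst hrp
    have hne : (⟨0, by omega⟩ : Fin m) ≠ ⟨1, by omega⟩ := by
      intro h
      simpa using congrArg Fin.val h
    set i0 : Fin m := ⟨0, by omega⟩ with hi0
    set i1 : Fin m := ⟨1, by omega⟩ with hi1
    have hpair : ∀ c : V, (c = Pi.single (Sum.inr i1) 1 ∨ c = Pi.single (Sum.inl i1) 1) →
        (transv (Pi.single (Sum.inl i0) 1 : V) (1 : F)) • c = c := by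
      rintro c (rfl | rfl)
      · rw [transv_smul, sympForm_single_inr_left, Pi.single_apply, if_neg (by simpa using hne.symm), mul_zero, zero_smul,
          add_zero]
      · rw [transv_smul, sympForm_single_inl_left, Pi.single_apply, if_neg (by simp), neg_zero, mul_zero, zero_smul,
          add_zero]
    have he0 : (Pi.single (Sum.inl i0) 1 : V) ≠ 0 := by
      intro h
      have := congrFun h (Sum.inl i0)
      simp at this
    refine false_of_pair hc (A := transv (Pi.single (Sum.inl i0) 1 : V) (1 : F)) ?_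
      (e := Pi.single (Sum.inr i1) 1) (e' := Pi.single (Sum.inl i1) 1) ?_ (hpair _ (Or.inl rfl)) (hpair _ (Or.inr rfl))
    · rw [orderOf_pr (e := (Pi.single (Sum.inl i0) 1 : V)) he0 (by
        rw [transv_smul, sympForm_self, mul_zero, zero_smul, add_zero])]
      apply orderOf_eq_prime
      · rw [transv_pow, CharP.cast_eq_zero, zero_mul, transv_zero]
      · intro h1
        have h2 := congrArg (fun g : G => g • (Pi.single (Sum.inr i0) 1 : V)) h1
        simp only [one_smul, transv_smul, sympForm_single_inr_left, Pi.single_eq_same, mul_one] at h2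
        have h3 := congrFun h2 (Sum.inl i0)
        simp at h3
    · rw [sympForm_single_inr_left]
      exact Pi.single_eq_same _ _
  refine ⟨h0, ?_⟩
  have h1 := Cfsg.Agent.H72.AdjCoc.sp_class (F := F) (m := m) hr h0 hd
  by_contra hne
  have h2 : eta (ee (Nat.card F) r) ≤ m - 1 := by omega
  obtain ⟨A, e, e', hA, hee, he, he'⟩ := exists_pair (F := F) (m := m) (n := m - 1) (by omega) hr
    (dvd_card_sp hr h0 h2)
  refine false_of_pair hc (A := A) ?_ hee he he'
  rw [orderOf_pr (e := e) ?_ he, hA]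
  rintro rfl
  rw [sympForm_zero_left] at hee
  exact zero_ne_one hee

/-- **`PSp_2m(q)`.** -/
theorem psp_card (hm : 2 ≤ m) [Fintype F] {ρ : Finset ℕ} (h : Ind (Cfsg.PSp m F) ρ) : ρ.card ≤ 2 := by
  classical
  have hcl : ∀ r ∈ ρ, ¬ r ∣ Nat.card F ∧ eta (ee (Nat.card F) r) = m := fun r hr =>
    class_eq hm (h.prime r hr) (h.dvd r hr) (h.cc r hr)
  have hinj : Set.InjOn (ee (Nat.card F)) ρ := by
    intro r hr s hs hrs
    by_contra hne
    have h2 : ∀ t ∈ ρ, t ≠ 2 := fun t ht h2 => by
      have := h.ge t ht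
      omega
    exact h.not_adj hr hs hne (Cfsg.Agent.H72.AdjSp.sp_clq hm (h.prime r hr) (h.prime s hs) (h2 r hr) (h2 s hs) hne
      (hcl r hr).1 (hcl s hs).1 hrs (hcl r hr).2.le)
  have h1 : ρ.image (ee (Nat.card F)) ⊆ {2 * m, m} := by
    intro k hk
    obtain ⟨r, hr, rfl⟩ := Finset.mem_image.1 hk
    have h2 := (hcl r hr).2
    rw [Finset.mem_insert, Finset.mem_singleton]
    rw [eta] at h2
    split_ifs at h2 with h3
    · left
      obtain ⟨j, hj⟩ := h3
      omega
    · right
      exact h2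
  have h2 := Finset.card_le_card h1
  rw [Finset.card_image_of_injOn hinj] at h2
  exact h2.trans Finset.card_le_two

end Cfsg.Agent.H76.Exc.PSp
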